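import Cfsg.Agent.FischerRecog58.CompMain

/-!
The hypotheses of the recognition from those of the statements.
-/

set_option autoImplicit false

namespace CfsgLib.FischerRecog58

open Cfsg

universe u

variable {G : Type u} [Group G] [Finite G]

/-- A transposition with the centralizer of Fi22 gives the hypotheses. -/
theorem hyp_of (d : G) (hd : orderOf d = 2)
    (hq : Cfsg.IsQuasisimple (Subgroup.centralizer ({d} : Set G)))
    [((Subgroup.zpowers d).subgroupOf (Subgroup.centralizer ({d} : Set G))).Normal]
    (K : Type) [Field K] [Fintype K] (hK : Fintype.card K = 4)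
    (e : (Subgroup.centralizer ({d} : Set G)) ⧸
      (Subgroup.zpowers d).subgroupOf (Subgroup.centralizer ({d} : Set G)) ≃* Cfsg.PSU 6 K 2)
    (hnwc : ∃ g : G, g * d * g⁻¹ ∈ Subgroup.centralizer ({d} : Set G) ∧ g * d * g⁻¹ ≠ d) :
    Hyp d := by
  refine ⟨exists_chart d hd hq K hK e, ?_⟩
  obtain ⟨g, hg, hne⟩ := hnwc
  exact ⟨_, conj_mem_class g mem_conjugatesOf_self, hne, mem_cent_iff.1 hg⟩

end CfsgLib.FischerRecog58
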