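import Cfsg.Agent.FischerRecog58.CompPair
import Cfsg.Agent.ThreeTransp.M22IsoFi22

/-!
Recognition of Fi22 from the centralizer of a transposition.
-/

set_option autoImplicit false
set_option maxRecDepth 100000

namespace CfsgLib.FischerRecog58

open Cfsg CfsgLib.ThreeTransp CfsgLib.CosetEnum CfsgLib.CosetEnum.Fi22

universe u v

theorem type_transport {A : Type u} {B : Type v} [Group A] [Group B] (e : A ≃* B) {D : Set A}
    {E : Set B} (hDE : e '' D = E) (h : IsOfTypeM22 A D) : IsOfTypeM22 B E := by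
  obtain ⟨hZ, a, ha, c, hc, hac, ⟨F, iF, iF', hF, ⟨φ⟩⟩, c₃, hc₃, Q, hQ1, hQ2, ⟨ψ⟩⟩ := h
  subst hDE
  have hS : ∀ a : A, e '' {y | y ∈ D ∧ y ≠ a ∧ Commute a y} =
      {y | y ∈ e '' D ∧ y ≠ e a ∧ Commute (e a) y} := by
    intro a
    ext y
    constructor
    · rintro ⟨x, ⟨hx, hne, hcm⟩, rfl⟩
      exact ⟨⟨x, hx, rfl⟩, e.injective.ne hne, hcm.map e.toMonoidHom⟩
    · rintro ⟨⟨x, hx, rfl⟩, hne, hcm⟩
      refine ⟨x, ⟨hx, fun h => hne (congrArg e h), ?_⟩, rfl⟩
      have h := hcm.map e.symm.toMonoidHom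
      simpa using h
  refine ⟨?_, e a, ⟨a, ha, rfl⟩, e c, ⟨c, hc, rfl⟩, fun h => hac ?_,
    ⟨F, iF, iF', hF, ?_⟩, c₃, hc₃, Q, hQ1, hQ2, ?_⟩
  · rw [eq_bot_iff]
    intro z hz
    have : e.symm z ∈ Subgroup.center A := Subgroup.mem_center_iff.2 fun g => e.injective (by
      rw [map_mul, map_mul, e.apply_symm_apply]
      exact Subgroup.mem_center_iff.1 hz (e g))
    rw [hZ, Subgroup.mem_bot] at this
    rw [Subgroup.mem_bot, ← e.apply_symm_apply z, this, map_one]
  · have h' := h.map e.symm.toMonoidHom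
    simpa using h'
  · obtain ⟨f⟩ := closure_congr (MonoidHom.id B) e.toMonoidHom Function.injective_id e.injective
      (S := {y | y ∈ e '' D ∧ y ≠ e a ∧ Commute (e a) y})
      (T := {y | y ∈ D ∧ y ≠ a ∧ Commute a y})
      (by rw [MonoidHom.coe_id, Set.image_id]; exact (hS a).symm)
    obtain ⟨g, -⟩ := quotCenterCongr f
    exact ⟨g.trans φ⟩
  · obtain ⟨f⟩ := closure_congr (MonoidHom.id B) e.toMonoidHom Function.injective_id e.injective
      (S := {y | y ∈ e '' D ∧ y ≠ e a ∧ Commute (e a) y} ∩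
        {y | y ∈ e '' D ∧ y ≠ e c ∧ Commute (e c) y})
      (T := {y | y ∈ D ∧ y ≠ a ∧ Commute a y} ∩ {y | y ∈ D ∧ y ≠ c ∧ Commute c y})
      (by
        rw [MonoidHom.coe_id, Set.image_id, ← hS a, ← hS c, ← Set.image_inter e.injective]
        rfl)
    obtain ⟨g, -⟩ := quotCenterCongr f
    exact ⟨g.trans ψ⟩

variable {G : Type u} [Group G]

theorem half_conj {x v : G} (hx : x * x = 1) (hv : v * v = 1) (j : ℕ) :
    ((x * v) ^ j)⁻¹ * v * (x * v) ^ j = v * (x * v) ^ (2 * j) ∧
    ((x * v) ^ j)⁻¹ * (v * x * v) * (x * v) ^ j = v * (x * v) ^ (2 * j + 1) := by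
  have hvx : v * (x * v) * v⁻¹ = (x * v)⁻¹ := by
    rw [mul_inv_rev, inv_eq_of_mul_eq_one_right hv, inv_eq_of_mul_eq_one_right hx, mul_assoc v,
      mul_assoc x v v, hv, mul_one]
  have h1 : ((x * v) ^ j)⁻¹ * v = v * (x * v) ^ j := by
    rw [← inv_pow, ← hvx, conj_pow, mul_assoc, inv_mul_cancel, mul_one]
  refine ⟨by rw [h1, mul_assoc, ← pow_add, two_mul], ?_⟩
  rw [show ((x * v) ^ j)⁻¹ * (v * x * v) = ((x * v) ^ j)⁻¹ * v * (x * v) by group, h1,
    mul_assoc v, ← pow_succ, mul_assoc v, ← pow_add, show j + 1 + j = 2 * j + 1 by omega]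

theorem odd_conj {x v : G} (hx : x * x = 1) (hv : v * v = 1) (ho : Odd (orderOf (x * v))) :
    ∃ j : ℕ, ((x * v) ^ j)⁻¹ * x * (x * v) ^ j = v := by
  obtain ⟨k, hk⟩ := ho
  refine ⟨k + 1, ?_⟩
  have hxv : x * (x * v) * x⁻¹ = (x * v)⁻¹ := by
    rw [mul_inv_rev, inv_eq_of_mul_eq_one_right hv, inv_eq_of_mul_eq_one_right hx, ← mul_assoc x,
      hx, one_mul]
  have h1 : ((x * v) ^ (k + 1))⁻¹ * x = x * (x * v) ^ (k + 1) := by
    rw [← inv_pow, ← hxv, conj_pow, mul_assoc, inv_mul_cancel, mul_one]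
  rw [h1, mul_assoc, ← pow_add, show k + 1 + (k + 1) = (2 * k + 1) + 1 by omega, pow_succ, ← hk,
    pow_orderOf_eq_one, one_mul, ← mul_assoc, hx, one_mul]

theorem even_half [Finite G] {x v : G} (hx : x * x = 1) (hv : v * v = 1)
    (ho : ¬ Odd (orderOf (x * v))) :
    ∃ k, (x * v) ^ k ≠ 1 ∧ (x * v) ^ k * (x * v) ^ k = 1 ∧ Commute x ((x * v) ^ k) ∧
      Commute v ((x * v) ^ k) := by
  obtain ⟨k, hk⟩ := Nat.not_odd_iff_even.1 ho
  have hpos := orderOf_pos (x * v)
  have h2 : (x * v) ^ k * (x * v) ^ k = 1 := by rw [← pow_add, ← hk, pow_orderOf_eq_one]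
  have hci : ((x * v) ^ k)⁻¹ = (x * v) ^ k := inv_eq_of_mul_eq_one_right h2
  refine ⟨k, fun h => ?_, h2, mul_inv_eq_iff_eq_mul.1 ?_, mul_inv_eq_iff_eq_mul.1 ?_⟩
  · have := Nat.le_of_dvd (by omega) (orderOf_dvd_of_pow_eq_one h)
    omega
  · rw [← conj_pow, show x * (x * v) * x⁻¹ = (x * v)⁻¹ by
      rw [mul_inv_rev, inv_eq_of_mul_eq_one_right hv, inv_eq_of_mul_eq_one_right hx, ← mul_assoc x,
        hx, one_mul], inv_pow, hci]
  · rw [← conj_pow, show v * (x * v) * v⁻¹ = (x * v)⁻¹ by
      rw [mul_inv_rev, inv_eq_of_mul_eq_one_right hv, inv_eq_of_mul_eq_one_right hx, mul_assoc v,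
        mul_assoc x v v, hv, mul_one], inv_pow, hci]

variable [Finite G] {d : G}

theorem class_sq (H : Hyp d) {x : G} (hx : x ∈ conjugatesOf d) : x * x = 1 := by
  obtain ⟨X⟩ := (H.at hx).chart
  exact X.mul_self

theorem outside_member (H : Hyp d) {x m : G} (hx : x ∈ conjugatesOf d) (hn : x ∉ comp d d)
    (hm : m ∈ comp d d) : ¬ Commute x m := by
  intro hc
  by_cases e : x = m
  · exact hn (e ▸ hm)
  · exact hn (comp_closed H mem_conjugatesOf_self hm ⟨hx, e, hc.symm⟩)

theorem outside_odd (H : Hyp d) {x v : G} (hx : x ∈ conjugatesOf d) (hn : x ∉ comp d d)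
    (hv : v ∈ comp d d) : Odd (orderOf (x * v)) := by
  have hxx := class_sq H hx
  have hvv := comp_sq H hv
  by_contra ho
  obtain ⟨k, hw1, hw2, hcx, hcv⟩ := even_half hxx hvv ho
  set w := (x * v) ^ k with hw
  have hvD := comp_mem mem_conjugatesOf_self hv
  have hvxv : v * x * v ∈ conjugatesOf d := by
    have := conj_mem_class v hx
    rwa [inv_eq_of_mul_eq_one_right hvv] at this
  have hu : v * w ∈ conjugatesOf d := by
    rcases Nat.even_or_odd' k with ⟨j, rfl | rfl⟩
    · rw [hw, ← (half_conj hxx hvv j).1]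
      simpa using conj_mem_class ((x * v) ^ j)⁻¹ hvD
    · rw [hw, ← (half_conj hxx hvv j).2]
      simpa using conj_mem_class ((x * v) ^ j)⁻¹ hvxv
  have hune : v * w ≠ v := fun e => hw1 (mul_left_cancel (e.trans (mul_one v).symm))
  have hun : v * w ∈ nbr (conjugatesOf d) v := ⟨hu, hune, (Commute.refl v).mul_right hcv⟩
  have hxH : x ∈ cH d := by
    refine pair_cent_le H hv hun ?_
    rw [← mul_assoc, hvv, one_mul]
    exact hcx
  exact hn (class_inter H hx hxH)

theorem class_eq_comp (H : Hyp d) : conjugatesOf d = comp d d := by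
  refine Set.Subset.antisymm (fun x hx => ?_) (fun x hx => comp_mem mem_conjugatesOf_self hx)
  by_contra hn
  have hG := cD_ttg H
  have hP := cD_primitive H
  have hT := cD_type H
  have hxx := class_sq H hx
  obtain ⟨v, c, K⟩ := exists_far H (mem_conjugatesOf_self (a := d))
  have hv : v ∈ comp d d := nbr_comp K.hx
  set t := d * v with ht
  have htt : t * t = 1 := by
    calc t * t = d * (v * d) * v := by rw [ht]; group
      _ = 1 := by
        rw [← K.hx.2.2.eq, ← mul_assoc, comp_sq H (self_comp d), one_mul, comp_sq H hv]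
  have htH : t ∈ cH d := mul_mem (mem_cH (self_comp d)) (mem_cH hv)
  have hfact2 : IsFact (cD d) 2 (⟨t, htH⟩ : ↥(cH d))
      [⟨d, mem_cH (self_comp d)⟩, ⟨v, mem_cH hv⟩] := by
    refine ⟨?_, rfl, ?_, ?_, ?_⟩
    · simp [Ne.symm K.hx.2.1]
    · simp only [List.forall_mem_cons, List.not_mem_nil, IsEmpty.forall_iff, implies_true, and_true]
      exact ⟨self_comp d, hv⟩
    · simp only [List.forall_mem_cons, List.not_mem_nil, IsEmpty.forall_iff, implies_true, and_true,
        Commute.refl, true_and]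
      exact ⟨Subtype.ext K.hx.2.2.eq, Subtype.ext K.hx.2.2.eq.symm⟩
    · simp only [List.prod_cons, List.prod_nil, mul_one]
      exact Subtype.ext rfl
  have hodd : ∀ {f : G}, f ∈ comp d d → ∃ g, g * x * g⁻¹ = f ∧
      ∀ z, Commute z x → Commute z f → Commute z g := by
    intro f hf
    obtain ⟨j, hj⟩ := odd_conj hxx (comp_sq H hf) (outside_odd H hx hn hf)
    exact ⟨((x * f) ^ j)⁻¹, by rw [inv_inv]; exact hj,
      fun z h1 h2 => ((h1.mul_right h2).pow_right j).inv_right⟩
  by_cases ho : Odd (orderOf (x * t))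
  · obtain ⟨j, hj⟩ := odd_conj hxx htt ho
    have htD : t ∈ conjugatesOf d := by
      rw [← hj]; simpa using conj_mem_class ((x * t) ^ j)⁻¹ hx
    have htc := class_inter H htD htH
    have hfact1 : IsFact (cD d) 1 (⟨t, htH⟩ : ↥(cH d)) [⟨t, htH⟩] := by
      refine ⟨by simp, rfl, ?_, ?_, by simp⟩
      · intro y hy; rw [List.mem_singleton] at hy; subst hy; exact htc
      · intro y hy z hz; rw [List.mem_singleton] at hy hz; subst hy hz; exact Commute.refl _
    exact absurd (m22_fact_length hG hP hT le_rfl (by norm_num) (by norm_num) (by norm_num)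
      hfact1 hfact2) (by norm_num)
  obtain ⟨k, hw1, hw2, hcx, hct⟩ := even_half hxx htt ho
  set w := (x * t) ^ k
  have hwH : w ∈ cH d := pair_cent_le H (self_comp d) K.hx hct.symm
  have hword : orderOf (⟨w, hwH⟩ : ↥(cH d)) = 2 :=
    orderOf_eq_prime (by rw [pow_two]; exact Subtype.ext hw2) fun e => hw1 (congrArg Subtype.val e)
  obtain ⟨m, hm1, hm3, l, hl⟩ := m22_involution_fact hG hP hT hword
  obtain ⟨hnd, hlen, hmem, hcom, hprod⟩ := hl
  interval_cases m
  · match l, hlen with
    | [f], _ =>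
      simp only [List.prod_cons, List.prod_nil, mul_one] at hprod
      refine outside_member H hx hn (hmem f (by simp)) ?_
      rw [show (f : G) = w from congrArg Subtype.val hprod]
      exact hcx
  · match l, hlen with
    | [f, g], _ =>
      simp only [List.prod_cons, List.prod_nil, mul_one] at hprod
      have hf := hmem f (by simp)
      have hg := hmem g (by simp)
      simp only [List.nodup_cons, List.mem_singleton] at hnd
      refine hn (class_inter H hx (pair_cent_le H hf (b := (g : G))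
        ⟨comp_mem mem_conjugatesOf_self hg, fun e => hnd.1 (Subtype.ext e.symm),
          (hcom f (by simp) g (by simp)).map (cH d).subtype⟩ ?_))
      rw [show (f : G) * g = w from congrArg Subtype.val hprod]
      exact hcx
  · match l, hlen with
    | [f1, f2, f3], _ =>
      simp only [List.prod_cons, List.prod_nil, mul_one] at hprod
      simp only [List.nodup_cons, List.mem_singleton, List.mem_cons, List.not_mem_nil, or_false,
        not_or] at hnd
      obtain ⟨⟨n12, n13⟩, n23, -⟩ := hnd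
      have h1 := hmem f1 (by simp)
      have h2 := hmem f2 (by simp)
      have h3 := hmem f3 (by simp)
      have c12 := hcom f1 (by simp) f2 (by simp)
      have c13 := hcom f1 (by simp) f3 (by simp)
      have c23 := hcom f2 (by simp) f3 (by simp)
      set z : ↥(cH d) := ⟨w, hwH⟩ with hz
      have hl3 : IsFact (cD d) 3 z [f1, f2, f3] := by
        refine ⟨by simp [n12, n13, n23], rfl, hmem, hcom, ?_⟩
        simp only [List.prod_cons, List.prod_nil, mul_one]; exact hprod
      obtain ⟨l₁, l₂, hl1, hl2, -, hall⟩ := m22_triples hG hP hT hl3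
      -- a member commuting with the three, outside both factorizations
      obtain ⟨f7, ⟨⟨h71, h72⟩, h73⟩, h7n⟩ : ∃ f7,
          f7 ∈ nbr (cD d) f1 ∩ nbr (cD d) f2 ∩ nbr (cD d) f3 ∧ f7 ∉ l₁ ++ l₂ := by
        by_contra hcon
        push Not at hcon
        classical
        obtain ⟨M⟩ := m22_pointModel hG hT (a := f1) h1
        have hb2 : f2 ∈ nbr (cD d) f1 := ⟨h2, Ne.symm n12, c12⟩
        have hb3 : f3 ∈ nbr (cD d) f1 := ⟨h3, Ne.symm n13, c13⟩
        have h51 := M.ncard_common_commute hb2 hb3 n23 c23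
        have hsub : nbr (cD d) f1 ∩ nbr (cD d) f2 ∩ nbr (cD d) f3 ⊆ ↑(l₁ ++ l₂).toFinset :=
          fun y hy => List.mem_toFinset.2 (hcon y hy)
        have h6 := (Set.ncard_le_ncard hsub (Finset.finite_toSet _)).trans_eq (Set.ncard_coe_finset _)
        have h6' := (l₁ ++ l₂).toFinset_card_le
        rw [List.length_append, hl1.2.1, hl2.2.1] at h6'
        omega
      have hc7z : Commute f7 z := by
        rw [← hprod]
        exact h71.2.2.symm.mul_right (h72.2.2.symm.mul_right h73.2.2.symm)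
      have hc1z : Commute f1 z := by
        rw [← hprod]
        exact (Commute.refl f1).mul_right (c12.mul_right c13)
      obtain ⟨g1, hg1, hg1z⟩ := hodd (f := (f1 : G)) h1
      obtain ⟨g7, hg7, hg7z⟩ := hodd (f := (f7 : G)) h71.1
      set g := g7 * g1⁻¹ with hgdef
      have hgf : g * (f1 : G) * g⁻¹ = f7 := by rw [← hg7, ← hg1, hgdef]; group
      have hgz : Commute w g :=
        (hg7z w hcx.symm ((hc7z.map (cH d).subtype).symm)).mul_right
          (hg1z w hcx.symm ((hc1z.map (cH d).subtype).symm)).inv_right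
      have hpairG : g * ((f2 : G) * f3) * g⁻¹ = (f7 : G) * w := by
        have e : (f2 : G) * f3 = (f1 : G) * w := by
          have e' : (f1 : G) * ((f2 : G) * f3) = w := congrArg Subtype.val hprod
          rw [← e', ← mul_assoc, comp_sq H h1, one_mul]
        rw [e, show g * ((f1 : G) * w) * g⁻¹ = (g * f1 * g⁻¹) * (g * w * g⁻¹) by group, hgf,
          ← hgz.eq, mul_inv_cancel_right]
      set y := g⁻¹ * (f7 : G) * g with hy
      have hyc : y ∈ comp d d := by
        refine class_inter H ?_ (pair_cent_le H h2 (b := (f3 : G))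
          ⟨comp_mem mem_conjugatesOf_self h3, fun e => n23 (Subtype.ext e.symm),
            c23.map (cH d).subtype⟩ ?_)
        · simpa [hy] using conj_mem_class g⁻¹ (comp_mem mem_conjugatesOf_self h71.1)
        · have h : Commute (f7 : G) ((f7 : G) * w) :=
            (Commute.refl _).mul_right (hc7z.map (cH d).subtype)
          rw [← hpairG] at h
          have h' := h.map (MulAut.conj g⁻¹).toMonoidHom
          simpa [hy, mul_assoc] using h'
      have hgH : g ∈ cH d := by
        have h : g⁻¹ ∈ cH d := comp_move H h71.1 (by rw [inv_inv]; exact hyc)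
        simpa using inv_mem h
      set gH : ↥(cH d) := ⟨g, hgH⟩
      have hp := hG.2.1 gH f2 h2
      have hq := hG.2.1 gH f3 h3
      set p := gH * f2 * gH⁻¹ with hpdef
      set q := gH * f3 * gH⁻¹ with hqdef
      have hpq : Commute p q := c23.map (MulAut.conj gH).toMonoidHom
      have hne : p ≠ q := fun e => n23 (mul_left_cancel (mul_right_cancel e))
      have hv7 : p * q = f7 * z := by
        rw [hpdef, hqdef]
        calc _ = gH * (f2 * f3) * gH⁻¹ := by group
          _ = f7 * z := Subtype.ext hpairG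
      have h7 := h71.1
      have hcpq := commute_of_commute_mul hG.1 h7 hp hq hpq hne
        (hv7 ▸ (Commute.refl f7).mul_right hc7z)
      have h77 : f7 * f7 = 1 := Subtype.ext (comp_sq H h7)
      have hzq : z = f7 * (p * q) := by rw [hv7, ← mul_assoc, h77, one_mul]
      have hne7 : ∀ {p q : ↥(cH d)}, q ∈ cD d → Commute f7 p → z = f7 * (p * q) → f7 ≠ p := by
        intro p q hq _ e hfp
        subst hfp
        rw [← mul_assoc, h77, one_mul] at e
        have hf1' : IsFact (cD d) 1 z [q] := by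
          refine ⟨by simp, rfl, ?_, ?_, by simp [e]⟩
          · intro y hy; rw [List.mem_singleton] at hy; subst hy; exact hq
          · intro y hy y' hy'; rw [List.mem_singleton] at hy hy'; subst hy hy'; exact Commute.refl _
        exact absurd (m22_fact_length hG hP hT le_rfl (by norm_num) (by norm_num) le_rfl hf1' hl3)
          (by norm_num)
      have h7p := hne7 hq hcpq.1 hzq
      have h7q := hne7 hp hcpq.2 (by rw [hzq, hpq.eq])
      have hl7 : IsFact (cD d) 3 z [f7, p, q] := by
        refine ⟨by simp [h7p, h7q, hne], rfl, ?_, ?_, ?_⟩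
        · simp only [List.forall_mem_cons, List.not_mem_nil, IsEmpty.forall_iff, implies_true, and_true]
          exact ⟨h7, hp, hq⟩
        · simp only [List.forall_mem_cons, List.not_mem_nil, IsEmpty.forall_iff, implies_true, and_true,
            Commute.refl, true_and]
          exact ⟨⟨hcpq.1, hcpq.2⟩, ⟨hcpq.1.symm, hpq⟩, hcpq.2.symm, hpq.symm⟩
        · simp only [List.prod_cons, List.prod_nil, mul_one]; exact hzq.symm
      refine h7n (List.mem_append.2 ?_)
      exact (hall _ hl7).imp (fun h => (h f7).1 (by simp)) fun h => (h f7).1 (by simp)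

theorem cH_eq_top (H : Hyp d) : cH d = ⊤ := by
  refine eq_top_iff.2 fun g _ => comp_move H (self_comp d) ?_
  rw [← class_eq_comp H]
  exact conj_mem_class g mem_conjugatesOf_self

/-- The conclusion of the recognition. -/
theorem recog22 (H : Hyp d) :
    IsThreeTranspositionClass (conjugatesOf d) ∧ IsOfTypeM22 G (conjugatesOf d) := by
  have hc := class_eq_comp H
  refine ⟨⟨⟨fun x hx => (H.at hx).orderOf_eq, fun x hx y hy => ?_⟩,
    ⟨d, mem_conjugatesOf_self, rfl⟩, ?_⟩, ?_⟩
  · rw [hc] at hx hy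
    exact comp_braid H mem_conjugatesOf_self hx hy
  · rw [hc]; exact cH_eq_top H
  · refine type_transport ((MulEquiv.subgroupCongr (cH_eq_top H)).trans Subgroup.topEquiv) ?_
      (cD_type H)
    ext x
    constructor
    · rintro ⟨y, hy, rfl⟩
      rw [hc]; exact hy
    · intro hx
      rw [hc] at hx
      exact ⟨⟨x, mem_cH hx⟩, hx, rfl⟩

/-- The group is the presented Fi22. -/
theorem recog22_iso (H : Hyp d) : Cfsg.Spor.IsoFi22 G := by
  obtain ⟨e, -⟩ := m22_iso_fi22 (cD_ttg H) (cD_primitive H) (cD_type H)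
  exact ⟨(Subgroup.topEquiv.symm.trans (MulEquiv.subgroupCongr (cH_eq_top H).symm)).trans e.symm⟩

end CfsgLib.FischerRecog58
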